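import Cfsg.Agent.H152.Dl.Rank
import Cfsg.Agent.H246.Dl.Defs
import Cfsg.Agent.H498.LinDerived

/-!
# S4769, defining characteristic, classical groups (helper152, task DL-EQ-CLASS)
-/

set_option autoImplicit false
set_option linter.unusedSectionVars false

namespace Cfsg.Agent.H152.Dl

open Cfsg
open Cfsg.Agent.H246.Dl

universe u

/-- derived length of `p`-subgroups of `GL_n(F)`, `F` of characteristic `p` (task DL-LIN (a)) -/
def LinHyp : Prop := ∀ (F : Type) [Field F] [Finite F] (n p : ℕ) [Fact p.Prime] [CharP F p]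
  (P : Subgroup (Matrix.GeneralLinearGroup (Fin n) F)), IsPGroup p ↥P → derivedSeries ↥P (Nat.clog 2 n) = ⊥

theorem linHyp : LinHyp := by
  intro F _ _ n p _ _ P hP
  have : Finite ↥P := inferInstance
  let ρ : Representation F ↥P (Fin n → F) :=
    ((Matrix.toLinAlgEquiv' : Matrix (Fin n) (Fin n) F ≃ₐ[F] _).toAlgHom.toMonoidHom.comp
      (Units.coeHom (Matrix (Fin n) (Fin n) F))).comp P.subtype
  rw [eq_bot_iff]
  intro g hg
  have h1 := Cfsg.Agent.H498.LinDerived.unipotent ρ hP (Nat.clog 2 n)
    (by rw [Module.finrank_fin_fun]; exact Nat.le_pow_clog (by norm_num) n) g hg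
  rw [Subgroup.mem_bot]
  apply Subtype.ext
  apply Units.ext
  apply (Matrix.toLinAlgEquiv' : Matrix (Fin n) (Fin n) F ≃ₐ[F] _).injective
  refine LinearMap.ext fun v => ?_
  have h2 : ρ g v = v := h1 v
  change (Matrix.toLinAlgEquiv' : Matrix (Fin n) (Fin n) F ≃ₐ[F] _) ((g : Matrix.GeneralLinearGroup (Fin n) F) :
    Matrix (Fin n) (Fin n) F) v = (Matrix.toLinAlgEquiv' : Matrix (Fin n) (Fin n) F ≃ₐ[F] _) 1 v
  rw [map_one]
  exact h2

theorem derivedSeries_of_injective {A B : Type*} [Group A] [Group B] (f : A →* B) (hf : Function.Injective f) {d : ℕ}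
    (h : derivedSeries B d = ⊥) : derivedSeries A d = ⊥ := by
  have h1 : (derivedSeries A d).map f ≤ derivedSeries B d := map_derivedSeries_le_derivedSeries f d
  rw [h, le_bot_iff, Subgroup.map_eq_bot_iff] at h1
  rw [eq_bot_iff]
  intro x hx
  have h2 := h1 hx
  rw [MonoidHom.mem_ker] at h2
  rw [Subgroup.mem_bot]
  exact hf (by rw [map_one]; exact h2)

theorem derivedSeries_of_surjective {A B : Type*} [Group A] [Group B] (f : A →* B) (hf : Function.Surjective f) {d : ℕ}
    (h : derivedSeries A d = ⊥) : derivedSeries B d = ⊥ := by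
  rw [← map_derivedSeries_eq hf, h, Subgroup.map_bot]

/-- reindexing -/
noncomputable def glEquiv {ι κ : Type*} [Fintype ι] [DecidableEq ι] [Fintype κ] [DecidableEq κ] (F : Type*) [Field F]
    (e : ι ≃ κ) : Matrix.GeneralLinearGroup ι F ≃* Matrix.GeneralLinearGroup κ F :=
  Units.mapEquiv (Matrix.reindexAlgEquiv F F e : Matrix ι ι F ≃* Matrix κ κ F)

/-- the bound for quotients of linear groups -/
theorem dlLe_of_linear (hL : LinHyp) {F : Type} [Field F] [Finite F] {p : ℕ} [Fact p.Prime] [CharP F p] {ι : Type}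
    [Fintype ι] [DecidableEq ι] {G' : Type*} [Group G'] [Finite G'] (j : G' →* Matrix.GeneralLinearGroup ι F)
    (hj : Function.Injective j) {S : Type u} [Group S] [Finite S] (f : G' →* S) (hf : Function.Surjective f) :
    DlLe p (Nat.clog 2 (Fintype.card ι)) S := by
  intro P
  -- a Sylow subgroup over `P`
  obtain ⟨Q⟩ : Nonempty (Sylow p G') := inferInstance
  let P' : Sylow p S := Q.mapSurjective hf
  obtain ⟨g, hg⟩ := MulAction.exists_smul_eq S P' P
  have hQ : derivedSeries ↥(Q : Subgroup G') (Nat.clog 2 (Fintype.card ι)) = ⊥ := by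
    let j' : G' →* Matrix.GeneralLinearGroup (Fin (Fintype.card ι)) F :=
      (glEquiv F (Fintype.equivFin ι)).toMonoidHom.comp j
    have hj' : Function.Injective j' := (glEquiv F (Fintype.equivFin ι)).injective.comp hj
    have h1 := hL F (Fintype.card ι) p ((Q : Subgroup G').map j') (Q.isPGroup'.map j')
    refine derivedSeries_of_injective (j'.subgroupMap (Q : Subgroup G')) ?_ h1
    intro a b hab
    exact Subtype.ext (hj' (congrArg Subtype.val hab))
  have hP' : derivedSeries ↥(P' : Subgroup S) (Nat.clog 2 (Fintype.card ι)) = ⊥ :=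
    derivedSeries_of_surjective (f.subgroupMap (Q : Subgroup G')) (f.subgroupMap_surjective _) hQ
  have e : ↥(P : Subgroup S) ≃* ↥(P' : Subgroup S) := (P.equiv P')
  exact derivedSeries_of_injective e.toMonoidHom e.injective hP'

/-! ### the six families -/

section dl

variable {F : Type} [Field F] [Fintype F] {p : ℕ} [Fact p.Prime] [CharP F p]

theorem dl_PSL (hL : LinHyp) (n : ℕ) :
    DlLe p (Nat.clog 2 n) (Matrix.ProjectiveSpecialLinearGroup (Fin n) F) := by
  have := dlLe_of_linear (p := p) hL (F := F) (ι := Fin n) (G' := Matrix.SpecialLinearGroup (Fin n) F)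
    Matrix.SpecialLinearGroup.toGL Matrix.SpecialLinearGroup.toGL_injective
    (QuotientGroup.mk' (Subgroup.center (Matrix.SpecialLinearGroup (Fin n) F))) (QuotientGroup.mk'_surjective _)
  rwa [Fintype.card_fin] at this

/-- the inclusion of the symplectic group -/
noncomputable def spToGL (m : ℕ) (F : Type) [Field F] :
    ↥(Matrix.symplecticGroup (Fin m) F) →* Matrix.GeneralLinearGroup (Fin m ⊕ Fin m) F :=
  (Matrix.symplecticGroup (Fin m) F).subtype.toHomUnits

theorem spToGL_injective (m : ℕ) (F : Type) [Field F] : Function.Injective (spToGL m F) := by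
  intro a b hab
  apply Subtype.ext
  exact congrArg Units.val hab

theorem dl_PSp (hL : LinHyp) (m : ℕ) : DlLe p (Nat.clog 2 (2 * m)) (PSp m F) := by
  have : Finite ↥(Matrix.symplecticGroup (Fin m) F) := Finite.of_injective _ Subtype.val_injective
  have := dlLe_of_linear (p := p) hL (F := F) (ι := Fin m ⊕ Fin m) (G' := ↥(Matrix.symplecticGroup (Fin m) F))
    (spToGL m F) (spToGL_injective m F)
    (QuotientGroup.mk' (Subgroup.center ↥(Matrix.symplecticGroup (Fin m) F))) (QuotientGroup.mk'_surjective _)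
  rwa [Fintype.card_sum, Fintype.card_fin, ← two_mul] at this

theorem dl_PSU (hL : LinHyp) (n q : ℕ) : DlLe p (Nat.clog 2 n) (PSU n F q) := by
  have := dlLe_of_linear (p := p) hL (F := F) (ι := Fin n) (G' := ↥(SU n F q))
    (Matrix.SpecialLinearGroup.toGL.comp (SU n F q).subtype)
    (Matrix.SpecialLinearGroup.toGL_injective.comp Subtype.val_injective)
    (QuotientGroup.mk' (Subgroup.center ↥(SU n F q))) (QuotientGroup.mk'_surjective _)
  rwa [Fintype.card_fin] at this

theorem dl_POmega (hL : LinHyp) {ι : Type} [Fintype ι] [DecidableEq ι] (Q : (ι → F) → F) :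
    DlLe p (Nat.clog 2 (Fintype.card ι)) (POmega F Q) :=
  dlLe_of_linear (p := p) hL (F := F) (ι := ι) (G' := ↥(Omega F Q))
    ((isometryGroup F Q).subtype.comp (Omega F Q).subtype)
    (Subtype.val_injective.comp Subtype.val_injective)
    (QuotientGroup.mk' (Subgroup.center ↥(Omega F Q))) (QuotientGroup.mk'_surjective _)

end dl

end Cfsg.Agent.H152.Dl
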