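import Cfsg.Agent.H396.CommTab2
import Cfsg.Prelude.Def_LieTypeChar

/-!
# Root group data with `CommGen` and explicit rank for the classical groups (helper152, task DL-EQ-CLASS of S4769)

`HasCGl p M G` : as helper396's `HasCG p G`, with explicit Coxeter matrix `M` on `Fin l`.
-/

set_option autoImplicit false
set_option linter.unusedSectionVars false

namespace Cfsg.Agent.H152.Dl

open Cfsg
open CoxeterSystem Cfsg.Agent.ChevalleyStructure.CoxeterGeom Cfsg.Agent.Tits.Roots Cfsg.Agent.Tits.Core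
open Cfsg.Agent.Nodes Cfsg.Agent.Nodes.BNOf Cfsg.Agent.Nodes.RGDLib Cfsg.Agent.Nodes.RGDChev
open Cfsg.Agent.Omega.EH3.Kf Cfsg.Agent.Omega.EH3.Kf.Lev
open Cfsg.Agent.H396 Cfsg.Agent.H396.CommTab

/-- root group datum of type `M` with `CommGen`, connected diagram, generating -/
def HasCGl (p : ℕ) {l : ℕ} (M : CoxeterMatrix (Fin l)) (G : Type*) [Group G] : Prop :=
  ∃ (A : Fin l → Fin l → ℤ) (h : IsCartan M A) (T : Subgroup G) (n : Fin l → G)
    (X : (Fin l → ℤ) → Subgroup G), 2 ≤ l ∧ Finite M.Group ∧ RGD M.toCoxeterSystem h p T n X ∧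
      Nodes.RGDLib.G1 M.toCoxeterSystem h X = ⊤ ∧ CommGen M.toCoxeterSystem h X ∧ Conn M

theorem HasCGl.hasCG {p l : ℕ} {M : CoxeterMatrix (Fin l)} {G : Type*} [Group G] (h : HasCGl p M G) : HasCG p G := by
  obtain ⟨A, h, T, n, X, hl⟩ := h
  exact ⟨l, M, A, h, T, n, X, hl⟩

section Model

open Cfsg.Agent.Nodes.TypeC Cfsg.Agent.Nodes.Comb Cfsg.Agent.Nodes.Reps Cfsg.Agent.Nodes.WittRoot
  Cfsg.Agent.Nodes.WittAll Cfsg.Agent.Nodes.WittU
open Cfsg.Agent.TitsThree Cfsg.Agent.TitsThree.Siegel Cfsg.Agent.TitsThree.SiegelGen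
  Cfsg.Agent.TitsThree.WittFrame Cfsg.Agent.TitsThree.WBridge Cfsg.Agent.TitsThree.WittWeyl
  Cfsg.Agent.TitsThree.FrameCN Cfsg.Agent.TitsThree.KSideU Cfsg.Agent.TitsThree.KSideUDesc
open Cfsg.Agent.LieClassical.HermBasic

section C

variable {F : Type*} [Field F] {V : Type*} [AddCommGroup V] [Module F V] {H : HForm F V} {n : ℕ}
  {Fr : Frame H (Fin n)} {K : Type*} [Group K] {p : ℕ}

theorem cgl_C (M : Model Fr K) (hA : AmbT Fr p M.I) [Finite V] [Fact p.Prime] [CharP F p] {p0 : Fr.Adm}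
    (hp0 : p0.c ≠ 0) (hn : 2 ≤ n) (hG : TwC.Gd (Nodes.WittModel.X M)) : HasCGl p (CoxeterMatrix.B n) K :=
  ⟨A n, isCartan n, _, _, _, hn, finite_W (CoxeterMatrix.B n).toCoxeterSystem,
    rgdC_model M hA hp0 _, WittModel.G1_eq_top _ (by omega) _,
    fun _ hr h0 hs => hG.gen _ hr h0 hs, Nodes.KindBC.irr n⟩

end C

/-- `PSU_{2m}(q)` -/
theorem cgl_PSU_even {F : Type*} [Field F] [Fintype F] {q m : ℕ} (hF : Fintype.card F = q ^ 2) {p : ℕ} [Fact p.Prime]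
    [CharP F p] (hm : 2 ≤ m) : HasCGl p (CoxeterMatrix.B m) (PSU (2 * m) F q) := by
  obtain ⟨W, hW⟩ := exists_wframe_even (N := 2 * m) hF rfl
  obtain ⟨p0, hp0, -⟩ := exists_adm hF W
  exact cgl_C (KInstU.model hF (by omega) W) (AmbT.of_amb (amb_U hF W) p) hp0 hm
    (TwWitt.gd_of_tr _ (htr_even hF W hW) hp0)

/-- `PSU_{2m+1}(q)` -/
theorem cgl_PSU_odd {F : Type*} [Field F] [Fintype F] {q m : ℕ} (hF : Fintype.card F = q ^ 2) {p : ℕ} [Fact p.Prime]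
    [CharP F p] (hm : 2 ≤ m) : HasCGl p (CoxeterMatrix.B m) (PSU (2 * m + 1) F q) := by
  obtain ⟨W, d, hd, hW⟩ := exists_wframe_odd (N := 2 * m + 1) hF rfl
  obtain ⟨p0, hp0, -⟩ := exists_adm hF W
  refine cgl_C (KInstU.model hF (by omega) W) (AmbT.of_amb (amb_U hF W) p) hp0 hm
    (UOdd.gd _ ⟨d, ?_, exists_ok hF W hW⟩)
  have h1 : (HU hF (2 * m + 1)).h d d = 1 := hd
  rw [h1]
  exact one_ne_zero

/-- `PSp_{2m}(q)`, `q > 2` -/
theorem cgl_PSp {F : Type*} [Field F] [Fintype F] {m : ℕ} (hm : 2 ≤ m) (hF : 2 < Fintype.card F) {p : ℕ}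
    [Fact p.Prime] [CharP F p] : HasCGl p (CoxeterMatrix.B m) (PSp m F) := by
  obtain ⟨t, ht0, ht1⟩ := exists_ne hF
  have hw : ∀ p : (SpIdent.frame m F).Adm, p.w = 0 := fun p =>
    (Submodule.mem_bot F).1 ((SpIdent.frame m F).ok_mem p.ok)
  exact cgl_C (KInstSp.model m F) (AmbT.of_amb amb_Sp p) (p0 := SpIdent.adm 1) one_ne_zero hm
    (TwWitt.gd_of_sp _ hw (fun _ => rfl) (fun c => ⟨SpIdent.adm c, rfl⟩) ht0 ht1)

end Model

/-! ### Orthogonal groups -/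

section Orthogonal

open Cfsg.Agent.Nodes.TypeC Cfsg.Agent.Nodes.Comb Cfsg.Agent.Nodes.Reps Cfsg.Agent.Nodes.WittRoot
  Cfsg.Agent.Nodes.WittAll Cfsg.Agent.Nodes.WittU
open Cfsg.Agent.TitsThree Cfsg.Agent.TitsThree.Siegel Cfsg.Agent.TitsThree.SiegelGen
  Cfsg.Agent.TitsThree.WittFrame Cfsg.Agent.TitsThree.WBridge Cfsg.Agent.TitsThree.WittWeyl
  Cfsg.Agent.TitsThree.FrameCN
open QuadraticMap
open Cfsg.Agent.LieClassical Cfsg.Agent.LieClassical.OrthCore Cfsg.Agent.LieClassical.OrthTrans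
open Cfsg.Agent.LieClassical.OrthSimple Cfsg.Agent.LieClassical.OrthFinite
open Cfsg.Agent.LieClassical.OrthForms
open Cfsg.Agent.TitsThree.KSideO Cfsg.Agent.TitsThree.StdData Cfsg.Agent.Nodes.WittInst

variable {F : Type*} [Field F] {m : ℕ}

theorem cgl_PO_odd [Finite F] (h2 : (2 : F) ≠ 0) (hm : 2 ≤ m) {p : ℕ} [Fact p.Prime] [CharP F p] :
    HasCGl p (CoxeterMatrix.B m) (Cfsg.POmega F (Cfsg.quadFormOdd m F)) := by
  rw [← coe_oddForm]
  have hG : Good (oddForm m F) := by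
    apply good_of_finite (nondeg_oddForm m F h2)
    rw [Module.finrank_fintype_fun_eq_card, Fintype.card_sum, Fintype.card_sum, Fintype.card_fin,
      Fintype.card_unit]
    omega
  have hp : ((embOdd m F).ngt ⟨1, -1 ^ 2, rfl⟩).c ≠ 0 := by
    change (1 : F)⁻¹ * (-1 ^ 2) ≠ 0
    simp
  refine cgl_C (model (wodd m F) hG ⟨_, hp⟩) (AmbT.of_amb (amb_O_of_two _ h2) p) hp hm ?_
  refine UOdd.gd _ ?_
  have hw := ((embOdd m F).ngt ⟨1, -1 ^ 2, rfl⟩)
  refine exists_d (wodd m F) h2 (d := ((embOdd m F).ngt ⟨1, -1 ^ 2, rfl⟩).w)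
    ((embOdd m F).ngt ⟨1, -1 ^ 2, rfl⟩).ok.1 ?_
  intro h0
  apply hp
  have h3 : ((embOdd m F).ngt ⟨1, -1 ^ 2, rfl⟩).c = -(oddForm m F) ((embOdd m F).ngt ⟨1, -1 ^ 2, rfl⟩).w :=
    ((embOdd m F).ngt ⟨1, -1 ^ 2, rfl⟩).ok.2
  rw [h3, h0, _root_.neg_zero]

theorem cgl_PO_minus [Finite F] (a b : F)
    (hab : ∀ z₁ z₂ : F, z₁ ^ 2 + a * z₁ * z₂ + b * z₂ ^ 2 = 0 → z₁ = 0 ∧ z₂ = 0)
    (hm : 2 ≤ m) {p : ℕ} [Fact p.Prime] [CharP F p] :
    HasCGl p (CoxeterMatrix.B m) (Cfsg.POmega F (Cfsg.quadFormMinus m F a b)) := by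
  rw [← coe_minusForm]
  have hG : Good (minusForm m F a b) := by
    apply good_of_finite (nondeg_minusForm m F a b hab)
    rw [Module.finrank_fintype_fun_eq_card, Fintype.card_sum, Fintype.card_sum, Fintype.card_fin,
      Fintype.card_fin]
    omega
  have hp : ((embMinus m F a b hab).ngt ⟨(1, 0), -nf a b (1, 0), rfl⟩).c ≠ 0 := by
    change (1 : F)⁻¹ * (-nf a b (1, 0)) ≠ 0
    simp [nf]
  by_cases h2 : (2 : F) = 0
  · have h3 : CharP F 2 := CharTwo.of_one_ne_zero_of_two_eq_zero one_ne_zero h2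
    have hp2 : p = 2 := CharP.eq F ‹CharP F p› h3
    subst hp2
    refine cgl_C (model (wminus m F a b hab) hG ⟨_, hp⟩)
      (ambT_O _ fun g hg hg2 hb => fixp_minus a b hab h2 hm hG hg hg2 hb) hp hm ?_
    exact TwWitt.gd_of_surj (model (wminus m F a b hab) hG ⟨_, hp⟩) (OMinusBd.exists_h_minus a b hab)
  · refine cgl_C (model (wminus m F a b hab) hG ⟨_, hp⟩) (AmbT.of_amb (amb_O_of_two _ h2) p) hp hm ?_
    refine UOdd.gd _ (exists_d (wminus m F a b hab) h2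
      (d := ((embMinus m F a b hab).ngt ⟨(1, 0), -nf a b (1, 0), rfl⟩).w)
      ((embMinus m F a b hab).ngt ⟨(1, 0), -nf a b (1, 0), rfl⟩).ok.1 ?_)
    intro h0
    apply hp
    have h3 : ((embMinus m F a b hab).ngt ⟨(1, 0), -nf a b (1, 0), rfl⟩).c =
        -(minusForm m F a b) ((embMinus m F a b hab).ngt ⟨(1, 0), -nf a b (1, 0), rfl⟩).w :=
      ((embMinus m F a b hab).ngt ⟨(1, 0), -nf a b (1, 0), rfl⟩).ok.2
    rw [h3, h0, _root_.neg_zero]

end Orthogonal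

/-! ### Simply laced diagrams -/

theorem cgl_of_sl {p : ℕ} {G : Type*} [Group G] {l : ℕ} {M : CoxeterMatrix (Fin l)} {A : Fin l → Fin l → ℤ}
    {h : IsCartan M A} {T : Subgroup G} {n : Fin l → G} {X : (Fin l → ℤ) → Subgroup G} (hl : 2 ≤ l)
    (hW : Finite M.Group) (R : RGD M.toCoxeterSystem h p T n X) (hX : G1 M.toCoxeterSystem h X = ⊤)
    (h4 : ∀ i j, M i j ≠ 4) (h6 : ∀ i j, M i j ≠ 6) (hc : Conn M) : HasCGl p M G :=
  ⟨A, h, T, n, X, hl, hW, R, hX,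
    comm_of_sl R (Cfsg.Agent.KFacts.RgdFiltWitt.sl_of_ne h4 h6), hc⟩

/-- `PSL_{n+1}(q)` -/
theorem cgl_PSL {F : Type*} [Field F] [Finite F] (n : ℕ) (hn : 2 ≤ n) {p : ℕ} [Fact p.Prime] [CharP F p] :
    HasCGl p (Cfsg.Agent.LieRecognition.BNCox.cA n) (Matrix.ProjectiveSpecialLinearGroup (Fin (n + 1)) F) := by
  have hc : ∀ i j : Fin n, Cfsg.Agent.LieRecognition.BNCox.cA n i j ≤ 3 := by
    intro i j
    rw [Cfsg.Agent.LieRecognition.BNCox.cA_apply]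
    show (if (i : ℕ) = j then 1 else if (i : ℕ) + 1 = j ∨ (j : ℕ) + 1 = i then 3 else 2) ≤ 3
    split_ifs <;> norm_num
  have hW : Finite (Cfsg.Agent.LieRecognition.BNCox.cA n).Group :=
    Nodes.RootsA.finite_W (Cfsg.Agent.LieRecognition.BNCox.cA n).toCoxeterSystem (Nodes.RootsA.isCartan n)
  exact cgl_of_sl (h := Nodes.RootsA.isCartan n) hn hW (Nodes.RGDTypeA.rgd_psl _ _)
    (Nodes.RGDTypeA.G1_psl_eq_top _ _)
    (fun i j h => by have := hc i j; omega) (fun i j h => by have := hc i j; omega)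
    (Nodes.Chart.Ty.irrA n (by omega))

section Plus

open QuadraticMap
open Cfsg.Agent.LieClassical Cfsg.Agent.LieClassical.OrthCore Cfsg.Agent.LieClassical.OrthTrans
open Cfsg.Agent.LieClassical.OrthSimple Cfsg.Agent.LieClassical.OrthFinite
open Cfsg.Agent.LieClassical.OrthForms
open Cfsg.Agent.TitsThree.WBridge Cfsg.Agent.TitsThree.KSideO Cfsg.Agent.TitsThree.StdData
open Cfsg.Agent.Nodes.WittU Cfsg.Agent.Nodes.WittInst

/-- `PΩ⁺_{2(n+3)}(q)` -/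
theorem cgl_PO_plus {F : Type*} [Field F] [Finite F] (n : ℕ) {p : ℕ} [Fact p.Prime] [CharP F p] :
    HasCGl p (Nodes.TypeD.M (n + 1)) (Cfsg.POmega F (Cfsg.quadFormPlus (n + 3) F)) := by
  rw [← coe_plusForm]
  have hG : Good (plusForm (n + 3) F) := by
    apply good_of_finite (nondeg_plusForm (n + 3) F)
    rw [Module.finrank_fintype_fun_eq_card, Fintype.card_sum, Fintype.card_fin]
    omega
  have hc : ∀ i j : Fin (n + 1 + 2), Nodes.TypeD.M (n + 1) i j ≤ 3 := by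
    intro i j
    show (if i = j then 1 else if Nodes.TypeD.Adj i j ∨ Nodes.TypeD.Adj j i then 3 else 2) ≤ 3
    split_ifs <;> norm_num
  exact cgl_of_sl (by omega) (Nodes.TypeD.finite_W (Nodes.TypeD.M (n + 1)).toCoxeterSystem)
    (rgdD_model (wplus (n + 3) F) hG (amb_plus _) (adm_plus _) _)
    (G1D_eq_top (wplus (n + 3) F) (toPOmega hG) (toPOmega_surjective hG) (adm_plus _) _)
    (fun i j h => by have := hc i j; omega) (fun i j h => by have := hc i j; omega)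
    (Nodes.Chart.Ty.irrD (n + 1) (by omega))

end Plus

end Cfsg.Agent.H152.Dl
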