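import Cfsg.Agent.H246.Dl.Defs
import Cfsg.Agent.ChevalleyStructure.Ree.Data
import Cfsg.Agent.LieRecognition.ReeSylowThree

/-!
# The Sylow `3`-subgroups of the small Ree groups are metabelian (helper152, task DL-EQ-CLASS)
-/

set_option autoImplicit false
set_option linter.unusedSectionVars false

namespace Cfsg.Agent.H152.Dl

open Cfsg
open Cfsg.Agent.H246.Dl Cfsg.Agent.LieRecognition Cfsg.Agent.LieRecognition.ReeSylowThree

universe u

section ree

variable {K : Type*} [Field K] {m : ℕ} {G : Type*} [Group G] {U : K → K → K → G} {h : Kˣ → G} {n : G}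
  (D : ReeAbs.Data m U h n)

include D

theorem ree_comm_mem {a b : G} (ha : a ∈ uSub D) (hb : b ∈ uSub D) : ∃ u v, a * b * a⁻¹ * b⁻¹ = U 0 u v := by
  obtain ⟨t, u, v, rfl⟩ := ha
  obtain ⟨t', u', v', rfl⟩ := hb
  have h1 : U t u v * U t' u' v' * (U t u v)⁻¹ * (U t' u' v')⁻¹ ∈ uSub D :=
    mul_mem (mul_mem (mul_mem ⟨_, _, _, rfl⟩ ⟨_, _, _, rfl⟩) (inv_mem ⟨_, _, _, rfl⟩)) (inv_mem ⟨_, _, _, rfl⟩)
  obtain ⟨s, x, y, h2⟩ := h1
  have h3 : U t u v * U t' u' v' = U s x y * (U t' u' v' * U t u v) := by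
    rw [← h2]; group
  rw [D.U_mul, D.U_mul, D.U_mul] at h3
  have h4 := (U_injective D h3).1
  have h5 : s = 0 := by linear_combination -h4
  exact ⟨x, y, by rw [h2, h5]⟩

theorem ree_dl : derivedSeries ↥(uSub D) 2 = ⊥ := by
  let N : Subgroup ↥(uSub D) :=
    { carrier := {x | ∃ u v, (x : G) = U 0 u v}
      mul_mem' := by
        rintro a b ⟨u, v, ha⟩ ⟨u', v', hb⟩
        exact ⟨_, _, by rw [Subgroup.coe_mul, ha, hb, D.U_mul, add_zero]⟩
      one_mem' := ⟨0, 0, D.U_zero.symm⟩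
      inv_mem' := by
        rintro a ⟨u, v, ha⟩
        refine ⟨-u, -v, ?_⟩
        rw [Subgroup.coe_inv, ha, inv_eq_iff_mul_eq_one, D.U_mul, ← D.U_zero]
        have he : (3 ^ (m + 1)) ≠ 0 := by positivity
        congr 1 <;> simp [zero_pow he] }
  have hN : ∀ x ∈ N, ∀ y ∈ N, x * y = y * x := by
    rintro x ⟨u, v, hx⟩ y ⟨u', v', hy⟩
    apply Subtype.ext
    rw [Subgroup.coe_mul, Subgroup.coe_mul, hx, hy, D.U_mul, D.U_mul]
    have he : (3 ^ (m + 1)) ≠ 0 := by positivity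
    congr 1
    · simp [zero_pow he, add_comm]
    · simp [zero_pow he, add_comm]
  have h1 : derivedSeries ↥(uSub D) 1 ≤ N := by
    rw [derivedSeries_one, commutator_eq_closure, Subgroup.closure_le]
    rintro _ ⟨a, b, rfl⟩
    obtain ⟨u, v, h2⟩ := ree_comm_mem D a.2 b.2
    exact ⟨u, v, h2⟩
  rw [derivedSeries_succ, eq_bot_iff, Subgroup.commutator_le]
  intro x hx y hy
  rw [Subgroup.mem_bot, commutatorElement_eq_one_iff_mul_comm]
  exact hN x (h1 hx) y (h1 hy)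

end ree

/-- **Ree groups** -/
theorem dl_ree {S : Type u} [Group S] [Finite S] (h : Lie.IsoRee S) : DlLe 3 2 S := by
  obtain ⟨K, iK, iK', m, hm, hc, ⟨e⟩⟩ := h
  have : Fact (Nat.Prime 3) := ⟨Nat.prime_three⟩
  obtain ⟨U, h, n, D⟩ := Cfsg.Agent.ChevalleyStructure.Ree.Data.exists_data hc
  have hfin : Finite (Cfsg.Lie.twistedG2 K (3 ^ m)) := Finite.of_equiv _ e.toEquiv
  refine DlLe.of_equiv e fun P => ?_
  have hcard : Nat.card ↥(uSub D) = 3 ^ (Nat.card (Cfsg.Lie.twistedG2 K (3 ^ m))).factorization 3 := by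
    rw [card_uSub, hc]
    set q := 3 ^ (2 * m + 1) with hq
    have hq3 : 3 ∣ q := dvd_pow_self 3 (by omega)
    have hq0 : 0 < q := by positivity
    have h1 : ¬ 3 ∣ (q - 1) * (q ^ 3 + 1) := by
      rw [Nat.prime_three.dvd_mul]
      have h3 : 3 ∣ q ^ 3 := dvd_pow hq3 (by norm_num)
      rintro (h | h) <;> omega
    have h2 : (Nat.card (Cfsg.Lie.twistedG2 K (3 ^ m))).factorization 3 = 3 * (2 * m + 1) := by
      rw [card_eq D, hc, mul_assoc,
        Nat.factorization_mul (by positivity) (by intro h0; rw [h0] at h1; exact h1 (dvd_zero 3)),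
        Finsupp.add_apply, Nat.factorization_eq_zero_of_not_dvd h1, add_zero, hq, ← pow_mul,
        Nat.Prime.factorization_pow Nat.prime_three, Finsupp.single_eq_same]
      ring
    rw [h2, hq]
    ring
  let Q : Sylow 3 (Cfsg.Lie.twistedG2 K (3 ^ m)) := Sylow.ofCard (uSub D) hcard
  have e' : ↥(P : Subgroup (Cfsg.Lie.twistedG2 K (3 ^ m))) ≃* ↥(Q : Subgroup (Cfsg.Lie.twistedG2 K (3 ^ m))) := P.equiv Q
  have h1 : derivedSeries ↥(Q : Subgroup (Cfsg.Lie.twistedG2 K (3 ^ m))) 2 = ⊥ := ree_dl D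
  have h2 : (derivedSeries ↥(P : Subgroup (Cfsg.Lie.twistedG2 K (3 ^ m))) 2).map e'.toMonoidHom ≤
      derivedSeries ↥(Q : Subgroup (Cfsg.Lie.twistedG2 K (3 ^ m))) 2 := map_derivedSeries_le_derivedSeries _ 2
  rw [h1, le_bot_iff, Subgroup.map_eq_bot_iff] at h2
  rw [eq_bot_iff]
  intro x hx
  have h3 := h2 hx
  rw [MonoidHom.mem_ker] at h3
  rw [Subgroup.mem_bot]
  exact e'.injective (by rw [map_one]; exact h3)

end Cfsg.Agent.H152.Dl
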