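import Cfsg.Agent.H152.Dl.Cls
import Cfsg.Agent.H759.Dl.Small
import Cfsg.Agent.H152.Dl.Ree

/-!
# S4769, defining characteristic, classical groups and rank one (helper152, task DL-EQ-CLASS)
-/

set_option autoImplicit false
set_option linter.unusedSectionVars false

namespace Cfsg.Agent.H152.Dl

open Cfsg
open Cfsg.Agent.H246.Dl

universe u

/-- task DL-THETA: `Many` for a root group datum with `CommGen` -/
def ThetaHyp : Prop := ∀ (p l : ℕ) (M : CoxeterMatrix (Fin l)) (G : Type) [Group G] [Finite G], p.Prime → HasCGl p M G →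
  Many p G l

theorem pow_bound {m : ℕ} (hm : 3 ≤ m) : 2 * m + 2 ≤ 2 ^ m := by
  induction m, hm using Nat.le_induction with
  | base => norm_num
  | succ k hk ih =>
    rw [pow_succ]
    omega

section rows

variable {F : Type} [Field F] [Fintype F] {p : ℕ} [hp : Fact p.Prime] [CharP F p]

/-- `PSL_n(q)`, `n ≥ 3` -/
theorem row_psl_eq (hT : ThetaHyp) {n : ℕ} (hn : 3 ≤ n) :
    Row p (Matrix.ProjectiveSpecialLinearGroup (Fin n) F) := by
  obtain ⟨k, rfl⟩ : ∃ k, n = k + 1 := ⟨n - 1, by omega⟩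
  refine Row.of_le (dl_PSL linHyp (k + 1)) (hT p k _ _ hp.out (cgl_PSL k (by omega))) ?_
  refine Nat.clog_le_of_le_pow ?_
  have := Nat.lt_two_pow_self (n := k)
  omega

/-- `PSp_{2m}(q)`, `q > 2` -/
theorem row_psp_eq (hT : ThetaHyp) {m : ℕ} (hm : 2 ≤ m) (hF : 2 < Fintype.card F) : Row p (PSp m F) := by
  have : Finite ↥(Matrix.symplecticGroup (Fin m) F) := Finite.of_injective _ Subtype.val_injective
  refine Row.of_le (dl_PSp linHyp m) (hT p m _ _ hp.out (cgl_PSp hm hF)) ?_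
  refine Nat.clog_le_of_le_pow ?_
  rcases Nat.lt_or_ge m 3 with h | h
  · obtain rfl : m = 2 := by omega
    norm_num
  · have := pow_bound h
    omega

/-- `PSU_n(q)`, `n = 4` or `n ≥ 6` -/
theorem row_psu_eq (hT : ThetaHyp) {n q : ℕ} (hF : Fintype.card F = q ^ 2) (hn : n = 4 ∨ 6 ≤ n) : Row p (PSU n F q) := by
  obtain ⟨m, hm⟩ : ∃ m, n = 2 * m ∨ n = 2 * m + 1 := ⟨n / 2, by omega⟩
  rcases hm with rfl | rfl
  · refine Row.of_le (dl_PSU linHyp _ q) (hT p m _ _ hp.out (cgl_PSU_even hF (by omega))) ?_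
    refine Nat.clog_le_of_le_pow ?_
    rcases Nat.lt_or_ge m 3 with h | h
    · obtain rfl : m = 2 := by omega
      norm_num
    · have := pow_bound h
      omega
  · refine Row.of_le (dl_PSU linHyp _ q) (hT p m _ _ hp.out (cgl_PSU_odd hF (by omega))) ?_
    refine Nat.clog_le_of_le_pow ?_
    have := pow_bound (m := m) (by omega)
    omega

/-- `PΩ_{2m+1}(q)`, `q` odd -/
theorem row_podd_eq (hT : ThetaHyp) {m : ℕ} (hm : 3 ≤ m) (h2 : (2 : F) ≠ 0) : Row p (POmega F (quadFormOdd m F)) := by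
  refine Row.of_le (dl_POmega linHyp _) (hT p m _ _ hp.out (cgl_PO_odd h2 (by omega))) ?_
  refine Nat.clog_le_of_le_pow ?_
  rw [Fintype.card_sum, Fintype.card_sum, Fintype.card_fin, Fintype.card_unit]
  have := pow_bound hm
  omega

/-- `PΩ⁺_{2m}(q)` -/
theorem row_pplus_eq (hT : ThetaHyp) {m : ℕ} (hm : 4 ≤ m) : Row p (POmega F (quadFormPlus m F)) := by
  obtain ⟨k, rfl⟩ : ∃ k, m = k + 3 := ⟨m - 3, by omega⟩
  refine Row.of_le (dl_POmega linHyp _) (hT p (k + 1 + 2) _ _ hp.out (cgl_PO_plus k)) ?_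
  refine Nat.clog_le_of_le_pow ?_
  rw [Fintype.card_sum, Fintype.card_fin]
  have := pow_bound (m := k + 1 + 2) (by omega)
  omega

/-- `PΩ⁻_{2m}(q)` -/
theorem row_pminus_eq (hT : ThetaHyp) {m : ℕ} (hm : 4 ≤ m) {a b : F}
    (hab : ∀ z₁ z₂ : F, z₁ ^ 2 + a * z₁ * z₂ + b * z₂ ^ 2 = 0 → z₁ = 0 ∧ z₂ = 0) :
    Row p (POmega F (quadFormMinus (m - 1) F a b)) := by
  refine Row.of_le (dl_POmega linHyp _) (hT p (m - 1) _ _ hp.out (cgl_PO_minus a b hab (by omega))) ?_
  refine Nat.clog_le_of_le_pow ?_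
  rw [Fintype.card_sum, Fintype.card_sum, Fintype.card_fin, Fintype.card_fin]
  have := pow_bound (m := m - 1) (by omega)
  omega

/-- `PSU_5(q)`, with `Many p _ 3` -/
theorem row_psu_five (q : ℕ) (hM : Many p (PSU 5 F q) 3) : Row p (PSU 5 F q) :=
  Row.of_le (dl_PSU linHyp 5 q) hM (by
    refine Nat.clog_le_of_le_pow ?_
    norm_num)

end rows

/-! ### rank one -/

section rankOne

variable {p : ℕ}

theorem dl_psl_two {F : Type} [Field F] [Fintype F] [Fact p.Prime] [CharP F p] :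
    DlLe p 1 (Matrix.ProjectiveSpecialLinearGroup (Fin 2) F) :=
  (dl_PSL linHyp 2).mono (Nat.clog_le_of_le_pow (by norm_num))

theorem dl_psu_three {F : Type} [Field F] [Fintype F] [Fact p.Prime] [CharP F p] (q : ℕ) : DlLe p 2 (PSU 3 F q) :=
  (dl_PSU linHyp 3 q).mono (Nat.clog_le_of_le_pow (by norm_num))

theorem dl_sz {S : Type u} [Group S] [Finite S] (h : Lie.IsoSuzuki S) : DlLe 2 2 S := by
  obtain ⟨F, _, _, m, hm, hc, ⟨e⟩⟩ := h
  have : Fact (Nat.Prime 2) := ⟨Nat.prime_two⟩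
  have : CharP F 2 := charP_of_card_eq_prime_pow hc
  have h1 := dlLe_of_linear (p := 2) linHyp (F := F) (ι := Fin 4) (G' := ↥(Lie.Sz F (2 ^ (m + 1))))
    (Lie.Sz F (2 ^ (m + 1))).subtype Subtype.val_injective e.symm.toMonoidHom e.symm.surjective
  exact h1.mono (Nat.clog_le_of_le_pow (by simp))

end rankOne

end Cfsg.Agent.H152.Dl
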